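import Cfsg.Agent.H127.An.Main
import Cfsg.Agent.H937.Conj.AltKeyProp

/-!
# S4792: the row of the alternating groups (helper430)
-/

set_option autoImplicit false

open Cfsg

namespace Cfsg.Agent.H430.Conj

universe u

theorem row_alt {S : Type u} [Group S] [Finite S] (h : IsAlternating S) : Row S :=
  H127.An.row_alt_of_key H937.AltKey.keyLemma h

end Cfsg.Agent.H430.Conj
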