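import Cfsg.Agent.H917.Conj.Basic
import Cfsg.Agent.Characters.SchurBound
import Cfsg.Agent.CharactersDeep.CosetAverage

/-!
# Tool H2: fixed vectors of a group acting on a Heisenberg group (S4792, helper430)
-/

set_option autoImplicit false

open Cfsg
open scoped ComplexConjugate

namespace Cfsg.Agent.H430.Conj

open Cfsg.Agent.Characters.Core

universe u v

section abstractX

variable {K : Type u} [Group K] [Finite K]

/-- If `X` vanishes on `Q ∖ Z`, has absolute value `X 1` on `Z` and constant absolute value on `Q d` then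
`|X d|² |Q| ≤ |Z| (X 1)²`. -/
theorem norm_sq_mul_card_le {X : K → ℂ} (hX : IsCharacter K X) {n : ℕ} (hn : X 1 = n) (Q Z : Subgroup K) [Q.Normal]
    (hZQ : Z ≤ Q) (h0 : ∀ y ∈ Q, y ∉ Z → X y = 0) (d : K) (hd : ∀ y ∈ Q, ‖X (y * d)‖ = ‖X d‖) :
    ‖X d‖ ^ 2 * Nat.card Q ≤ Nat.card Z * (n : ℝ) ^ 2 := by
  classical
  have hQf : Fintype Q := Fintype.ofFinite _
  have hψ : IsCharacter K (fun g => X g * conj (X g)) := isCharacter_mul hX (isCharacter_conj hX)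
  have hΨ := CharactersDeep.CosetAverage.isCharacter_cosetAverage Q hψ
  obtain ⟨m, hm⟩ := isCharacter_apply_one hΨ
  have h1 := Cfsg.Agent.Characters.SchurBound.norm_le hΨ hm d
  have hval : ∀ g : K, X g * conj (X g) = ((‖X g‖ ^ 2 : ℝ) : ℂ) := by
    intro g
    rw [Complex.mul_conj, Complex.normSq_eq_norm_sq]
  have hcQ : (0 : ℝ) < Nat.card Q := by exact_mod_cast Nat.card_pos
  have hcQ' : (Nat.card Q : ℂ) ≠ 0 := by exact_mod_cast Nat.card_pos.ne'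
  -- the value at `d`
  have h2 : (Nat.card Q : ℂ)⁻¹ * ∑ y : Q, X ((y : K) * d) * conj (X ((y : K) * d)) = ((‖X d‖ ^ 2 : ℝ) : ℂ) := by
    have : ∀ y : Q, X ((y : K) * d) * conj (X ((y : K) * d)) = ((‖X d‖ ^ 2 : ℝ) : ℂ) := by
      intro y
      rw [hval, hd y y.2]
    rw [Finset.sum_congr rfl fun y _ => this y, Finset.sum_const, Finset.card_univ, ← Nat.card_eq_fintype_card,
      nsmul_eq_mul, ← mul_assoc, inv_mul_cancel₀ hcQ', one_mul]
  -- the value at `1`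
  have h3 : ∑ y : Q, X ((y : K) * 1) * conj (X ((y : K) * 1)) = (((∑ y : Q, ‖X (y : K)‖ ^ 2 : ℝ)) : ℂ) := by
    push_cast
    refine Finset.sum_congr rfl fun y _ => ?_
    rw [mul_one, hval]
    push_cast
    rfl
  have h4 : (∑ y : Q, ‖X (y : K)‖ ^ 2 : ℝ) ≤ Nat.card Z * (n : ℝ) ^ 2 := by
    have h5 : (∑ y : Q, ‖X (y : K)‖ ^ 2 : ℝ) = ∑ y ∈ Finset.univ.filter (fun y : Q => (y : K) ∈ Z), ‖X (y : K)‖ ^ 2 := by
      rw [Finset.sum_filter]
      refine Finset.sum_congr rfl fun y _ => ?_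
      split_ifs with hy
      · rfl
      · rw [h0 y y.2 hy]; simp
    rw [h5]
    have h6 : (Finset.univ.filter (fun y : Q => (y : K) ∈ Z)).card = Nat.card Z := by
      rw [← Fintype.card_subtype, ← Nat.card_eq_fintype_card]
      refine Nat.card_congr ?_
      exact
        { toFun := fun y => ⟨y.1, y.2⟩
          invFun := fun z => ⟨⟨z.1, hZQ z.2⟩, z.2⟩
          left_inv := fun y => rfl
          right_inv := fun z => rfl }
    calc (∑ y ∈ Finset.univ.filter (fun y : Q => (y : K) ∈ Z), ‖X (y : K)‖ ^ 2 : ℝ)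
        ≤ ∑ _y ∈ Finset.univ.filter (fun y : Q => (y : K) ∈ Z), (n : ℝ) ^ 2 := by
          refine Finset.sum_le_sum fun y _ => ?_
          exact pow_le_pow_left₀ (norm_nonneg _) (Cfsg.Agent.Characters.SchurBound.norm_le hX hn _) 2
      _ = _ := by rw [Finset.sum_const, h6, nsmul_eq_mul]
  have h7 : (m : ℝ) * Nat.card Q = ∑ y : Q, ‖X (y : K)‖ ^ 2 := by
    have h8 : (m : ℂ) * Nat.card Q = (((∑ y : Q, ‖X (y : K)‖ ^ 2 : ℝ)) : ℂ) := by
      rw [← hm, ← h3]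
      field_simp
    exact_mod_cast h8
  have h9 : ‖X d‖ ^ 2 ≤ (m : ℝ) := by
    rw [h2, Complex.norm_real, Real.norm_of_nonneg (by positivity)] at h1
    exact h1
  nlinarith

end abstractX

section heis

variable {G : Type u} [Group G] [Finite G]

/-- The weight space. -/
def wt {V : Type*} [AddCommGroup V] [Module ℂ V] (ρ : Representation ℂ G V) (Z : Subgroup G) (l : Z →* ℂˣ) :
    Submodule ℂ V where
  carrier := {v | ∀ z : Z, ρ z v = (l z : ℂ) • v}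
  zero_mem' := by intro z; simp
  add_mem' := by
    intro v w hv hw z
    rw [map_add, hv z, hw z, smul_add]
  smul_mem' := by
    intro c v hv z
    rw [map_smul, hv z, smul_comm]

omit [Finite G] in
theorem mem_wt {V : Type*} [AddCommGroup V] [Module ℂ V] {ρ : Representation ℂ G V} {Z : Subgroup G} {l : Z →* ℂˣ}
    {v : V} : v ∈ wt ρ Z l ↔ ∀ z : Z, ρ z v = (l z : ℂ) • v := Iff.rfl

/-- The stabiliser of `l` in the normaliser of `Z`, as the subgroup of all `g` with `g z = z' g`, `l z' = l z`. -/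
def stab (Z : Subgroup G) (l : Z →* ℂˣ) : Subgroup G where
  carrier := {g | ∀ z : Z, (∃ z' : Z, (z' : G) = g * z * g⁻¹ ∧ l z' = l z) ∧ (∃ z' : Z, (z' : G) = g⁻¹ * z * g ∧ l z' = l z)}
  one_mem' := by
    intro z
    exact ⟨⟨z, by simp, rfl⟩, ⟨z, by simp, rfl⟩⟩
  mul_mem' := by
    intro g h hg hh z
    obtain ⟨⟨z1, h1, h1'⟩, -⟩ := hh z
    obtain ⟨⟨z2, h2, h2'⟩, -⟩ := hg z1
    obtain ⟨-, ⟨z3, h3, h3'⟩⟩ := hg z
    obtain ⟨-, ⟨z4, h4, h4'⟩⟩ := hh z3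
    exact ⟨⟨z2, by rw [h2, h1]; group, h2'.trans h1'⟩, ⟨z4, by rw [h4, h3]; group, h4'.trans h3'⟩⟩
  inv_mem' := by
    intro g hg z
    obtain ⟨⟨z1, h1, h1'⟩, ⟨z2, h2, h2'⟩⟩ := hg z
    exact ⟨⟨z2, by rw [h2]; group, h2'⟩, ⟨z1, by rw [h1]; group, h1'⟩⟩

omit [Finite G] in
theorem stab_wt {V : Type*} [AddCommGroup V] [Module ℂ V] {ρ : Representation ℂ G V} {Z : Subgroup G} {l : Z →* ℂˣ}
    {g : G} (hg : g ∈ stab Z l) {v : V} (hv : v ∈ wt ρ Z l) : ρ g v ∈ wt ρ Z l := by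
  intro z
  obtain ⟨-, ⟨z', h1, h2⟩⟩ := hg z
  have h3 : (z : G) * g = g * z' := by rw [h1]; group
  calc ρ z (ρ g v) = ρ (z * g) v := by rw [map_mul, Module.End.mul_apply]
    _ = ρ g (ρ z' v) := by rw [h3, map_mul, Module.End.mul_apply]
    _ = _ := by rw [hv z', map_smul, h2]

/-- **Tool H2.** `Z ≤ Q` central in `Q`, `D` normalises `Q` and `Z`, acts without fixed points on `Q / Z` and fixes the
linear character `l` of `Z`, the commutator form of `l` on `Q / Z` is nondegenerate and `|D|² ≤ |Q : Z|`. If `l` occurs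
in `ρ` then `D` fixes a nonzero vector in the `l`-eigenspace of `Z`. -/
theorem exists_fixed_heis {V : Type*} [AddCommGroup V] [Module ℂ V] [FiniteDimensional ℂ V]
    (ρ : Representation ℂ G V) {Q Z D : Subgroup G} (hZQ : Z ≤ Q) (hZ : ∀ z ∈ Z, ∀ y ∈ Q, z * y = y * z)
    (hDQ : ∀ d ∈ D, ∀ y ∈ Q, d * y * d⁻¹ ∈ Q) (hDZ : ∀ d ∈ D, ∀ z ∈ Z, d * z * d⁻¹ ∈ Z)
    (hfp : ∀ d ∈ D, d ≠ 1 → ∀ y ∈ Q, d * y * d⁻¹ * y⁻¹ ∈ Z → y ∈ Z)
    {l : Z →* ℂˣ} (hD : ∀ d ∈ D, ∀ a b : Z, (b : G) = d * a * d⁻¹ → l b = l a) (hl : Occ Z l ρ.character)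
    (hnd : ∀ y ∈ Q, y ∉ Z → ∃ y' ∈ Q, ∃ z : Z, (z : G) = y * y' * y⁻¹ * y'⁻¹ ∧ l z ≠ 1)
    (hcard : Nat.card D ^ 2 * Nat.card Z ≤ Nat.card Q) :
    ∃ v : V, v ≠ 0 ∧ (∀ z : Z, ρ z v = (l z : ℂ) • v) ∧ ∀ d ∈ D, ρ d v = v := by
  classical
  -- the acting group
  let K : Subgroup G := Subgroup.normalizer (Q : Set G) ⊓ stab Z l
  have hQK : Q ≤ K := by
    refine le_inf Subgroup.le_normalizer ?_
    intro y hy z
    have h1 : y * z * y⁻¹ = z := by rw [← hZ z z.2 y hy]; group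
    have h2 : y⁻¹ * z * y = z := by rw [mul_assoc, hZ z z.2 y hy]; group
    exact ⟨⟨z, h1.symm, rfl⟩, ⟨z, h2.symm, rfl⟩⟩
  have hDinv : ∀ d ∈ D, ∀ y ∈ Q, d⁻¹ * y * d ∈ Q := by
    intro d hd y hy
    have := hDQ d⁻¹ (D.inv_mem hd) y hy
    rwa [inv_inv] at this
  have hDK : D ≤ K := by
    intro d hd
    refine ⟨?_, ?_⟩
    · refine Subgroup.mem_normalizer_iff.2 ?_
      intro y
      refine ⟨fun hy => hDQ d hd y hy, fun hy => ?_⟩
      have := hDinv d hd _ hy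
      have h2 : d⁻¹ * (d * y * d⁻¹) * d = y := by group
      rwa [h2] at this
    · intro z
      refine ⟨⟨⟨d * z * d⁻¹, hDZ d hd z z.2⟩, rfl, hD d hd _ _ rfl⟩, ?_⟩
      have h1 := hDZ d⁻¹ (D.inv_mem hd) z z.2
      rw [inv_inv] at h1
      exact ⟨⟨d⁻¹ * z * d, h1⟩, rfl, hD d⁻¹ (D.inv_mem hd) _ _ (by simp)⟩
  let W : Submodule ℂ V := wt ρ Z l
  -- the representation of `K` on the weight space
  let σ : Representation ℂ K W :=
    { toFun := fun g => (ρ (g : G)).restrict (fun v hv => stab_wt g.2.2 hv)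
      map_one' := by
        ext v
        simp [LinearMap.restrict_apply]
      map_mul' := by
        intro g h
        ext v
        simp [LinearMap.restrict_apply] }
  have hσ : ∀ (g : K) (v : W), ((σ g v : W) : V) = ρ (g : G) v := fun g v => rfl
  have hWnt : Nontrivial W := by
    obtain ⟨v, hv, hv'⟩ := hl.exists_vector
    exact ⟨⟨⟨v, hv'⟩, 0, fun h => hv (congrArg Subtype.val h)⟩⟩
  let X : K → ℂ := σ.character
  have hX : IsCharacter K X := isCharacter_of_rep σ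
  have hX1 : X 1 = (Module.finrank ℂ W : ℂ) := Representation.char_one σ
  have hdim : 0 < Module.finrank ℂ W := Module.finrank_pos
  -- `Z` acts by scalars
  have hXz : ∀ (g : K) (z : Z), X (g * ⟨z, hQK (hZQ z.2)⟩) = (l z : ℂ) * X g := by
    intro g z
    have h1 : σ (g * ⟨z, hQK (hZQ z.2)⟩) = (l z : ℂ) • σ g := by
      refine LinearMap.ext fun v => ?_
      rw [map_mul, Module.End.mul_apply, LinearMap.smul_apply]
      have h2 : σ ⟨z, hQK (hZQ z.2)⟩ v = (l z : ℂ) • v := by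
        apply Subtype.ext
        rw [hσ]
        exact v.2 z
      rw [h2, map_smul]
    change LinearMap.trace ℂ _ (σ _) = _ * LinearMap.trace ℂ _ (σ g)
    rw [h1, map_smul, smul_eq_mul]
  have hlnorm : ∀ z : Z, ‖(l z : ℂ)‖ = 1 := by
    intro z
    have h1 : (l z) ^ Nat.card Z = 1 := by rw [← map_pow, pow_card_eq_one', map_one]
    have h2 : ((l z : ℂ)) ^ Nat.card Z = 1 := by
      have := congrArg (fun u : ℂˣ => (u : ℂ)) h1
      simpa using this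
    exact Complex.norm_eq_one_of_pow_eq_one h2 Nat.card_pos.ne'
  have hcl : ∀ g h : K, X (h * g * h⁻¹) = X g := fun g h => (isCharacter_isClassFunction hX) g h
  let Q' : Subgroup K := Q.subgroupOf K
  let Z' : Subgroup K := Z.subgroupOf K
  have hQ'n : Q'.Normal := by
    constructor
    intro y hy g
    rw [Subgroup.mem_subgroupOf] at hy ⊢
    exact (Subgroup.mem_normalizer_iff.1 g.2.1 y).1 hy
  have hcQ : Nat.card Q' = Nat.card Q := Nat.card_congr (Subgroup.subgroupOfEquivOfLe hQK).toEquiv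
  have hcZ : Nat.card Z' = Nat.card Z := Nat.card_congr (Subgroup.subgroupOfEquivOfLe (hZQ.trans hQK)).toEquiv
  have hZQ' : Z' ≤ Q' := fun z hz => hZQ hz
  have hX0 : ∀ y ∈ Q', y ∉ Z' → X y = 0 := by
    intro y hy hyZ
    obtain ⟨y', hy', z, hz, hlz⟩ := hnd y hy hyZ
    -- `y' y⁻¹... `
    have h1 : (⟨y', hQK hy'⟩ : K) * y * (⟨y', hQK hy'⟩ : K)⁻¹ = y * ⟨(z⁻¹ : Z), hQK (hZQ (z⁻¹).2)⟩ := by
      apply Subtype.ext
      change y' * (y : G) * y'⁻¹ = y * ((z⁻¹ : Z) : G)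
      have hcomm : ((z⁻¹ : Z) : G) * y = y * ((z⁻¹ : Z) : G) := hZ _ (z⁻¹).2 _ hy
      rw [← hcomm, Subgroup.coe_inv, hz]
      group
    have h2 := hcl y ⟨y', hQK hy'⟩
    rw [h1, hXz] at h2
    have h3 : ((l z⁻¹ : ℂˣ) : ℂ) ≠ 1 := by
      intro h
      apply hlz
      have : l z⁻¹ = 1 := Units.ext h
      rw [map_inv, inv_eq_one] at this
      exact this
    have h4 : (((l z⁻¹ : ℂˣ) : ℂ) - 1) * X y = 0 := by rw [sub_mul, h2, one_mul, sub_self]
    exact (mul_eq_zero.1 h4).resolve_left (sub_ne_zero.2 h3)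
  -- conjugates of `d`
  have hconj : ∀ d : G, (hd : d ∈ D) → d ≠ 1 → ∀ y ∈ Q, ∃ u ∈ Q, ∃ z ∈ Z, y = u * d * u⁻¹ * d⁻¹ * z := by
    intro d hd hd1
    have hZn : (Z.subgroupOf Q).Normal := by
      constructor
      intro z hz y
      rw [Subgroup.mem_subgroupOf] at hz ⊢
      have : (((y * z * y⁻¹ : Q)) : G) = z := by
        change (y : G) * z * (y : G)⁻¹ = z
        rw [← hZ z hz y y.2]; group
      rw [this]; exact hz
    let f : Q → Q := fun u => ⟨u * d * (u : G)⁻¹ * d⁻¹, by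
      have h1 := hDQ d hd (u : G)⁻¹ (Q.inv_mem u.2)
      have h2 := Q.mul_mem u.2 h1
      simpa [mul_assoc] using h2⟩
    let F : Q ⧸ Z.subgroupOf Q → Q ⧸ Z.subgroupOf Q := Quotient.map' f (by
      intro a b hab
      rw [QuotientGroup.leftRel_apply] at hab ⊢
      rw [Subgroup.mem_subgroupOf] at hab ⊢
      change ((a : G) * d * (a : G)⁻¹ * d⁻¹)⁻¹ * ((b : G) * d * (b : G)⁻¹ * d⁻¹) ∈ Z
      have hab' : (a : G)⁻¹ * b ∈ Z := hab
      set z : G := (a : G)⁻¹ * b with hz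
      have hb : (b : G) = a * z := by rw [hz]; group
      have hzd : d * z⁻¹ * d⁻¹ ∈ Z := hDZ d hd _ (Z.inv_mem hab')
      have e1 : z * (d * (a : G)⁻¹ * d⁻¹) = (d * (a : G)⁻¹ * d⁻¹) * z :=
        hZ z hab' _ (hDQ d hd _ (Q.inv_mem a.2))
      have e2 : ((a : G) * d * (a : G)⁻¹ * d⁻¹)⁻¹ * ((b : G) * d * (b : G)⁻¹ * d⁻¹)
          = (d * z⁻¹ * d⁻¹) * z := by
        have e3 : (d * z⁻¹ * d⁻¹) * (d * (a : G)⁻¹ * d⁻¹) = (d * (a : G)⁻¹ * d⁻¹) * (d * z⁻¹ * d⁻¹) :=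
          hZ _ hzd _ (hDQ d hd _ (Q.inv_mem a.2))
        rw [hb]
        calc ((a : G) * d * (a : G)⁻¹ * d⁻¹)⁻¹ * ((a * z : G) * d * (a * z : G)⁻¹ * d⁻¹)
            = (d * (a : G)⁻¹ * d⁻¹)⁻¹ * (z * ((d * z⁻¹ * d⁻¹) * (d * (a : G)⁻¹ * d⁻¹))) := by group
          _ = (d * (a : G)⁻¹ * d⁻¹)⁻¹ * (z * ((d * (a : G)⁻¹ * d⁻¹) * (d * z⁻¹ * d⁻¹))) := by rw [e3]
          _ = (d * (a : G)⁻¹ * d⁻¹)⁻¹ * ((z * (d * (a : G)⁻¹ * d⁻¹)) * (d * z⁻¹ * d⁻¹)) := by group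
          _ = (d * (a : G)⁻¹ * d⁻¹)⁻¹ * (((d * (a : G)⁻¹ * d⁻¹) * z) * (d * z⁻¹ * d⁻¹)) := by rw [e1]
          _ = z * (d * z⁻¹ * d⁻¹) := by group
          _ = (d * z⁻¹ * d⁻¹) * z := hZ z hab' _ (hZQ hzd)
      rw [e2]
      exact Z.mul_mem hzd hab')
    have hF : Function.Injective F := by
      intro a b hab
      induction a using QuotientGroup.induction_on with | _ a => ?_
      induction b using QuotientGroup.induction_on with | _ b => ?_
      have h1 : (QuotientGroup.mk (f a) : Q ⧸ Z.subgroupOf Q) = QuotientGroup.mk (f b) := hab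
      rw [QuotientGroup.eq, Subgroup.mem_subgroupOf] at h1 ⊢
      change ((a : G) * d * (a : G)⁻¹ * d⁻¹)⁻¹ * ((b : G) * d * (b : G)⁻¹ * d⁻¹) ∈ Z at h1
      change (a : G)⁻¹ * (b : G) ∈ Z
      refine hfp d hd hd1 _ (Q.mul_mem (Q.inv_mem a.2) b.2) ?_
      -- `s := (d a⁻¹ d⁻¹)⁻¹ a⁻¹ b (d b⁻¹ d⁻¹) ∈ Z`
      have h2 := Z.inv_mem h1
      -- s⁻¹ = (d b d⁻¹) b⁻¹ a (d a⁻¹ d⁻¹)
      set s : G := (((a : G) * d * (a : G)⁻¹ * d⁻¹)⁻¹ * ((b : G) * d * (b : G)⁻¹ * d⁻¹))⁻¹ with hs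
      have hq : (d * (a : G)⁻¹ * d⁻¹) ∈ Q := hDQ d hd _ (Q.inv_mem a.2)
      have e1 : d * ((a : G)⁻¹ * (b : G)) * d⁻¹ * ((a : G)⁻¹ * (b : G))⁻¹ = s := by
        have e2 : d * ((a : G)⁻¹ * (b : G)) * d⁻¹ * ((a : G)⁻¹ * (b : G))⁻¹
            = (d * (a : G)⁻¹ * d⁻¹) * s * (d * (a : G)⁻¹ * d⁻¹)⁻¹ := by
          rw [hs]; group
        rw [e2, ← hZ s h2 _ hq]
        group
      rw [e1]
      exact h2
    have hFs : Function.Surjective F := Finite.injective_iff_surjective.1 hF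
    intro y hy
    obtain ⟨u, hu⟩ := hFs (QuotientGroup.mk ⟨y, hy⟩)
    induction u using QuotientGroup.induction_on with | _ u => ?_
    have h1 : (QuotientGroup.mk (f u) : Q ⧸ Z.subgroupOf Q) = QuotientGroup.mk ⟨y, hy⟩ := hu
    rw [QuotientGroup.eq, Subgroup.mem_subgroupOf] at h1
    refine ⟨u, u.2, _, h1, ?_⟩
    change y = (u : G) * d * (u : G)⁻¹ * d⁻¹ * (((u : G) * d * (u : G)⁻¹ * d⁻¹)⁻¹ * y)
    group
  have hXd : ∀ d : K, (d : G) ∈ D → d ≠ 1 → ∀ y ∈ Q', ‖X (y * d)‖ = ‖X d‖ := by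
    intro d hd hd1 y hy
    obtain ⟨u, hu, z, hz, hyz⟩ := hconj d hd (fun h => hd1 (Subtype.ext h)) y hy
    have hz' : (d : G)⁻¹ * z * d ∈ Z := by
      have := hDZ (d : G)⁻¹ (D.inv_mem hd) z hz
      rwa [inv_inv] at this
    have h1 : y * d = (⟨u, hQK hu⟩ : K) * (d * ⟨(d : G)⁻¹ * z * d, hQK (hZQ hz')⟩) * (⟨u, hQK hu⟩ : K)⁻¹ := by
      apply Subtype.ext
      change (y : G) * d = u * (d * ((d : G)⁻¹ * z * d)) * u⁻¹
      have e1 : ((d : G)⁻¹ * z * d) * u⁻¹ = u⁻¹ * ((d : G)⁻¹ * z * d) := hZ _ hz' _ (Q.inv_mem hu)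
      rw [hyz]
      calc u * (d : G) * u⁻¹ * (d : G)⁻¹ * z * d = u * d * (u⁻¹ * ((d : G)⁻¹ * z * d)) := by group
        _ = u * d * (((d : G)⁻¹ * z * d) * u⁻¹) := by rw [e1]
        _ = _ := by group
    rw [h1, hcl, hXz d ⟨_, hz'⟩, norm_mul, hlnorm, one_mul]
  -- the bound
  have hDpos : (0 : ℝ) < Nat.card D := by exact_mod_cast Nat.card_pos
  have hZpos : (0 : ℝ) < Nat.card Z := by exact_mod_cast Nat.card_pos
  have hbound : ∀ d : K, (d : G) ∈ D → d ≠ 1 → (Nat.card D : ℝ) * ‖X d‖ ≤ Module.finrank ℂ W := by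
    intro d hd hd1
    have h1 := norm_sq_mul_card_le hX hX1 Q' Z' hZQ' hX0 d (hXd d hd hd1)
    rw [hcQ, hcZ] at h1
    have h2 : ((Nat.card D : ℝ)) ^ 2 * Nat.card Z ≤ Nat.card Q := by exact_mod_cast hcard
    have h3 : ‖X d‖ ^ 2 * (((Nat.card D : ℝ)) ^ 2 * Nat.card Z) ≤ Nat.card Z * (Module.finrank ℂ W : ℝ) ^ 2 :=
      (mul_le_mul_of_nonneg_left h2 (by positivity)).trans h1
    have h4 : ((Nat.card D : ℝ) * ‖X d‖) ^ 2 ≤ (Module.finrank ℂ W : ℝ) ^ 2 := by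
      have h5 : ((Nat.card D : ℝ) * ‖X d‖) ^ 2 * Nat.card Z ≤ (Module.finrank ℂ W : ℝ) ^ 2 * Nat.card Z := by
        nlinarith
      exact le_of_mul_le_mul_right h5 hZpos
    exact (sq_le_sq₀ (by positivity) (by positivity)).1 h4
  -- the sum over `D`
  let D' : Subgroup K := D.subgroupOf K
  have hcD : Nat.card D' = Nat.card D := Nat.card_congr (Subgroup.subgroupOfEquivOfLe hDK).toEquiv
  have hfix : HasFix D' X := by
    have : Fintype D' := Fintype.ofFinite _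
    rw [HasFix, finsum_eq_sum_of_fintype]
    intro hsum
    rw [← Finset.add_sum_erase Finset.univ (fun c : D' => X (c : K)) (Finset.mem_univ 1)] at hsum
    have h1 : X (((1 : D')) : K) = (Module.finrank ℂ W : ℂ) := hX1
    have h2 : ‖∑ c ∈ Finset.univ.erase (1 : D'), X (c : K)‖ = (Module.finrank ℂ W : ℝ) := by
      have h3 : ∑ c ∈ Finset.univ.erase (1 : D'), X (c : K) = -(Module.finrank ℂ W : ℂ) := by
        rw [h1] at hsum
        exact eq_neg_of_add_eq_zero_right hsum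
      rw [h3, norm_neg, Complex.norm_natCast]
    have h3 : (Nat.card D : ℝ) * ‖∑ c ∈ Finset.univ.erase (1 : D'), X (c : K)‖
        ≤ (Nat.card D - 1) * Module.finrank ℂ W := by
      calc (Nat.card D : ℝ) * ‖∑ c ∈ Finset.univ.erase (1 : D'), X (c : K)‖
          ≤ Nat.card D * ∑ c ∈ Finset.univ.erase (1 : D'), ‖X (c : K)‖ :=
            mul_le_mul_of_nonneg_left (norm_sum_le _ _) hDpos.le
        _ = ∑ c ∈ Finset.univ.erase (1 : D'), (Nat.card D : ℝ) * ‖X (c : K)‖ := by rw [Finset.mul_sum]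
        _ ≤ ∑ _c ∈ Finset.univ.erase (1 : D'), (Module.finrank ℂ W : ℝ) := by
            refine Finset.sum_le_sum fun c hc => hbound c c.2 ?_
            intro h
            exact (Finset.mem_erase.1 hc).1 (Subtype.ext h)
        _ = _ := by
            rw [Finset.sum_const, Finset.card_erase_of_mem (Finset.mem_univ _), Finset.card_univ,
              ← Nat.card_eq_fintype_card, hcD, nsmul_eq_mul, Nat.cast_sub Nat.card_pos, Nat.cast_one]
    rw [h2] at h3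
    have h4 : (0 : ℝ) < Module.finrank ℂ W := by exact_mod_cast hdim
    nlinarith
  obtain ⟨v, hv, hv'⟩ := hfix.exists_vector
  refine ⟨v, fun h => hv (Subtype.ext h), v.2, fun d hd => ?_⟩
  have := congrArg Subtype.val (hv' ⟨d, hDK hd⟩ hd)
  exact this

end heis

end Cfsg.Agent.H430.Conj
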